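import Cfsg.Agent.Recog.X8.PT

/-! The case of a centre of order eight: the local structure. -/

set_option autoImplicit false
set_option maxRecDepth 100000
set_option linter.unusedSectionVars false

namespace CF.X8
open Cfsg Subgroup CF.Loc CF.Even CF.LX CF.Comp CF.Dce CF.J4 CF.XT

variable {G : Type*} [Group G] [Finite G]

theorem zo3 {a x : G} (h : orderOf a = 3) (hx : x ∈ zpowers a) : x = 1 ∨ x = a ∨ x = a⁻¹ := by
  classical
  obtain ⟨i, hi, rfl⟩ := Finset.mem_image.1 ((orderOf_pos_iff.1 (h ▸ three_pos)).mem_zpowers_iff_mem_range_orderOf.1 hx)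
  rw [h, Finset.mem_range] at hi
  interval_cases i
  exacts [.inl (pow_zero a), .inr (.inl (pow_one a)), .inr (.inr (eq_inv_of_mul_eq_one_left (by
    rw [← pow_succ]; exact (h ▸ pow_orderOf_eq_one a : a ^ 3 = 1))))]

theorem po3 {a x : G} (h : orderOf a = 3) (hx : x ∈ zpowers a) {K : Subgroup G} (k : x ∈ K) (n : a ∉ K) : x = 1 :=
  (zo3 h hx).resolve_right fun e => e.elim (fun e => n (e ▸ k)) fun e => n (inv_mem_iff.1 (e ▸ k))

/-- the hypotheses -/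
structure P3 (J Z : Subgroup G) (z c : G) (π : G → L8) : Prop extends Pa J Z z where
  I : Pq 5 𝐂₁(z) (J ⊔ zpowers c) π
  cH : c ∈ 𝐂₁(z)
  c3 : orderOf c = 3
  fix : ∀ x ∈ J, x ∈ 𝐂₁(c) → x ∈ zpowers z
  cZ : Nat.card Z = 8
  cc : ¬ 𝐂₁(z) ≤ J ⊔ zpowers c ⊔ 𝐂₁(z) ⊓ 𝐂₁(c)

/-- the hypotheses, with the invariant complement -/
structure P4 (J Z V : Subgroup G) (z c : G) (π : G → L8) : Prop extends P3 J Z z c π where
  vz : V ≤ Z
  nz : z ∉ V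
  sp : ∀ w ∈ Z, w ∈ V ∨ z * w ∈ V
  nV : 𝐂₁(z) ≤ 𝐍(V)

namespace P3
variable {J Z : Subgroup G} {z c : G} {π : G → L8} (P : P3 J Z z c π)
include P

theorem cn : zpowers c ≤ 𝐍(J) := zpowers_le.2 (P.nor P.cH)

theorem DH : J ⊔ zpowers c ≤ 𝐂₁(z) := sup_le P.JH (zpowers_le.2 P.cH)

theorem dec {g : G} (h : g ∈ J ⊔ zpowers c) : ∃ j ∈ J, ∃ k ∈ zpowers c, j * k = g := (mem_sup_of_le_normalizer P.cn).1 h

theorem fr {g : G} (h : g ∈ 𝐂₁(z)) : ∃ d ∈ J ⊔ zpowers c, ∃ m ∈ 𝐍(zpowers c), g = d * m := by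
  have : Fact (Nat.Prime 3) := ⟨Nat.prime_three⟩
  obtain ⟨n, e⟩ := IsPGroup.iff_card.1 P.two
  refine (isSyl_of_not_dvd_relIndex (isPGroup_zpowers_of_prime P.c3) le_sup_right fun k => ?_).frattini
    (mem_normalizer_of_conj_mem fun x k => (P.I.ker _ (mul_mem (mul_mem h (P.DH k)) (inv_mem h))).1 (by
      rw [P.I.hom.conj h (P.DH k), (P.I.ker x (P.DH k)).2 k]; simp))
  have := card_sup_dvd (H := J) (.inr P.cn)
  rw [← card_mul_relIndex (le_sup_right : zpowers c ≤ _), mul_comm, e] at this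
  exact absurd (Nat.prime_three.dvd_of_dvd_pow (k.trans (Nat.dvd_of_mul_dvd_mul_right Nat.card_pos this))) (by norm_num)

theorem syl : IsSyl 2 J (J ⊔ zpowers c) := isSyl_of_not_dvd_relIndex P.two le_sup_left fun k => by
  have := k.trans (relIndex_sup_of_le_normalizer P.cn ▸ relIndex_dvd_card J (zpowers c))
  rw [Nat.card_zpowers, P.c3] at this
  omega

theorem p4 : ∃ V, P4 J Z V z c π := by
  have n := P.nZ P.cH
  have cm : ∀ {a b}, a ∈ Z → b ∈ Z → Commute a b := Invol.commute_of_forall_mul_self P.zq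
  have c3 : c * c = c⁻¹ := eq_inv_of_mul_eq_one_left (by rw [← pow_three', ← P.c3, pow_orderOf_eq_one])
  have ml : ∀ a ∈ Z, ∀ b ∈ Z, c * (a * b) * c⁻¹ * (c⁻¹ * (a * b) * c) =
      c * a * c⁻¹ * (c⁻¹ * a * c) * (c * b * c⁻¹ * (c⁻¹ * b * c)) := fun a h b k => by
    rw [← (cm (norm_mem' n k) (norm_mem n h)).mul_mul_mul_comm]; group
  have zz : c * z * c⁻¹ * (c⁻¹ * z * c) = 1 := by
    rw [conj_eq_iff.2 (mem_c1.1 P.cH), mul_assoc c⁻¹, ← mem_c1.1 P.cH, inv_mul_cancel_left, P.zz]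
  let V : Subgroup G :=
    { carrier := {w | w ∈ Z ∧ c * w * c⁻¹ * (c⁻¹ * w * c) = w}
      one_mem' := ⟨one_mem _, by simp⟩
      mul_mem' := fun {a b} h k => ⟨mul_mem h.1 k.1, by rw [ml a h.1 b k.1, h.2, k.2]⟩
      inv_mem' := fun {a} h => (inv_eq_of_mul_eq_one_right (P.zq a h.1)).symm ▸ h }
  have vz : V ≤ Z := fun _ h => h.1
  have nc : 𝐍(zpowers c) ⊓ 𝐂₁(z) ≤ 𝐍(V) := fun m h => mem_normalizer_of_conj_mem fun w k =>
    ⟨norm_mem' (P.nZ h.2) k.1, by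
      rw [show c * (m * w * m⁻¹) * c⁻¹ * (c⁻¹ * (m * w * m⁻¹) * c) = m * (m⁻¹ * c * m * w * (m⁻¹ * c * m)⁻¹ *
        ((m⁻¹ * c * m)⁻¹ * w * (m⁻¹ * c * m))) * m⁻¹ by group]
      rcases zo3 P.c3 (norm_mem h.1 (mem_zpowers c)) with e | e | e
      · have := P.c3
        rw [show c = m * (m⁻¹ * c * m) * m⁻¹ by group, e] at this
        simp at this
      · rw [e, k.2]
      · rw [e, inv_inv, (cm (norm_mem n k.1) (norm_mem' n k.1)).eq, k.2]⟩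
  refine ⟨V, P, vz, fun h => P.ne (h.2.symm.trans zz), fun w h => ?_, fun g h => ?_⟩
  · have m := mul_mem (norm_mem' n h) (norm_mem n h)
    refine (P.mz.1 (P.fix _ (P.le (mul_mem h m)) (mem_c1.2 (conj_eq_iff.1 ?_).symm))).imp (fun e => ⟨h, ?_⟩)
      fun e => ⟨mul_mem P.mem h, ?_⟩
    · rw [show c * (w * (c * w * c⁻¹ * (c⁻¹ * w * c))) * c⁻¹ = c * w * c⁻¹ * (c * c * w * (c * c)⁻¹) * w by group, c3,
        inv_inv, (cm m h).eq]
    · rw [eq_inv_of_mul_eq_one_right e, inv_eq_of_mul_eq_one_right (P.zq w h)]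
    · rw [ml z P.mem w h, zz, one_mul, eq_inv_mul_of_mul_eq e, inv_eq_of_mul_eq_one_right (P.zq w h), (cm h P.mem).eq]
  · obtain ⟨d, h1, m, h2, rfl⟩ := P.fr h
    exact mul_mem (sup_le (P.JC.trans (centralizer_le_normalizer_of_le vz)) ((le_inf le_normalizer
      (zpowers_le.2 P.cH)).trans nc) h1) (nc ⟨h2, (mul_mem_cancel_left (P.DH h1)).1 h⟩)

end P3

namespace P4
variable {J Z V : Subgroup G} {z c : G} {π : G → L8} (P : P4 J Z V z c π)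
include P

theorem cV : Nat.card V = 4 := by
  have := card_mul_relIndex P.vz
  rw [relIndex_eq_two_iff_exists_notMem_and'.2 ⟨z, P.mem, P.nz, fun w h => (P.sp w h).symm⟩, P.cZ] at this
  omega

theorem sq' {w : G} (h : w ∈ V) : w * w = 1 := P.zq w (P.vz h)

theorem cz : 𝐂(V) ⊓ 𝐂₁(z) = 𝐂(Z) := le_antisymm (fun g k => mem_centralizer_iff'.2 fun w h => (P.sp w h).elim
  (mem_centralizer_iff'.1 k.1 w) fun e => mem_c1.1 ((mul_mem_cancel_left (mem_c1.2 (mem_c1.1 k.2).symm)).1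
    (mem_c1.2 (mem_centralizer_iff'.1 k.1 _ e)))) (le_inf (centralizer_anti P.vz) P.CH)

variable {v : G} (h : v ∈ V) (n : v ≠ 1)
include h n

theorem cv : c ∉ 𝐂₁(v) := fun k => (P.mz.1 (P.fix v (P.le (P.vz h)) (mem_c1.2 (mem_c1.1 k).symm))).elim n
  fun e => P.nz (e ▸ h)

theorem c3' : (kl (zpowers c) v).ncard = 3 := by
  rw [ncard_kl]
  exact ((Nat.dvd_prime Nat.prime_three).1 (P.c3 ▸ Nat.card_zpowers c ▸ relIndex_dvd_card _ _)).resolve_left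
    fun e => P.cv h n (relIndex_eq_one.1 e (mem_zpowers c))

theorem tr {w : G} (k : w ∈ V) (m : w ≠ 1) : v ∈ kl (zpowers c) w :=
  (Set.eq_of_subset_of_ncard_le (s := kl (zpowers c) w) (t := (V : Set G) \ {1}) (fun _ ⟨x, l, e⟩ => e ▸
    ⟨norm_mem' (P.nV (zpowers_le.2 P.cH l)) k, mt conj_eq_one_iff.1 m⟩) (by
      rw [P.c3' k m, Set.ncard_sdiff_singleton_of_mem (one_mem V), show (V : Set G).ncard = 4 from P.cV])).ge ⟨h, n⟩

theorem k4 : ∃ u, K4 V v u :=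
  ⟨c * v * c⁻¹, P.cV, fun _ => P.sq', h, norm_mem' (P.nV P.cH) h, n, mt conj_eq_one_iff.1 n,
    fun e => P.cv h n (mem_c1.2 (conj_eq_iff.1 e))⟩

theorem CN : 𝐂(Z) ≤ 𝐂₁(v) := fun _ k => mem_c1.2 (mem_centralizer_iff'.1 k v (P.vz h)).symm

theorem mov {g : G} (k : g ∈ 𝐂₁(z)) : ∃ x ∈ zpowers c, x * g ∈ 𝐂₁(v) ⊓ 𝐂₁(z) :=
  (P.tr h n (norm_mem' (P.nV k) h) (mt conj_eq_one_iff.1 n)).imp fun x l => ⟨l.1, mem_c1.2 (conj_eq_iff.1
    (by rw [mul_inv_rev, ← mul_assoc, mul_assoc x g, mul_assoc x, l.2])), mul_mem (zpowers_le.2 P.cH l.1) k⟩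

theorem iu : Pq 5 (𝐂₁(v) ⊓ 𝐂₁(z)) J π := by
  refine ⟨P.I.hom.mono inf_le_right, fun g k => (P.I.ker g k.2).trans ⟨fun l => ?_, (mem_sup_left ·)⟩,
    fun g k => P.I.inn g k.2, fun l k => ?_⟩
  · obtain ⟨j, h1, x, h2, rfl⟩ := P.dec l
    rwa [po3 P.c3 h2 ((mul_mem_cancel_left (P.CN h n (P.JC h1))).1 (mem_inf.1 k).1) (P.cv h n), mul_one]
  · obtain ⟨g, h1, rfl⟩ := P.I.sur l k
    obtain ⟨x, h2, h3⟩ := P.mov h n h1
    have m := zpowers_le.2 P.cH h2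
    exact ⟨_, h3, by rw [P.I.hom x m g h1, (P.I.ker x m).2 (mem_sup_right h2), one_mul]⟩

theorem cov : ∀ l ∈ LL 4, ∃ g ∈ 𝐂(Z), π g = l :=
  (P.iu h n).cov (le_inf (P.CN h n) P.CH) (inf_le_right.trans (P.nZ.trans (normalizer_le_normalizer_centralizer Z)))
    fun _ k => P.cz ▸ (P.k4 h n).elim fun _ K => ⟨K.sc ⟨P.nV k.2, k.1⟩, mul_mem k.2 k.2⟩

theorem pb : Pb J Z z := P.toPa.pb P.I (P.cov h n) P.syl

theorem swp : ∃ t ∈ 𝐂₁(v) ⊓ 𝐂₁(z), t ∉ 𝐂(V) := by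
  by_contra e
  refine P.cc fun g k => ?_
  obtain ⟨d, h1, m, h2, rfl⟩ := P.fr k
  replace k := (mul_mem_cancel_left (P.DH h1)).1 k
  obtain ⟨x, h3, h4⟩ := P.mov h n k
  have l := not_not.1 fun l => e ⟨_, h4, l⟩
  have o := mul_mem (le_normalizer h3) h2
  rw [← inv_mul_cancel_left x m, ← mul_assoc]
  refine mul_mem_sup (mul_mem h1 (mem_sup_right (inv_mem h3))) ⟨h4.2, mem_c1.2 (conj_eq_iff.1 (mul_inv_eq_one.1
    (po3 P.c3 (mul_mem (norm_mem' o (mem_zpowers c)) (inv_mem (mem_zpowers c))) ?_ fun k =>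
      P.cv h n (mem_c1.2 (mem_centralizer_iff'.1 k v h).symm))))⟩
  simpa only [mul_assoc] using mul_mem l (norm_mem' (normalizer_le_normalizer_centralizer V (P.nV P.cH)) (inv_mem l))

theorem i4 : Pq 4 𝐂(Z) J π := (P.iu h n).four (le_inf (P.CN h n) P.CH) (P.cov h n) P.JC fun l =>
  (P.swp h n).elim fun _ k => k.2 (centralizer_anti P.vz (l k.1))

end P4

end CF.X8
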